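import Cfsg.Agent.H58.FrattiniAction
import Cfsg.Agent.H74.PGroupAction

/-!
Elements acting trivially on `Q / Φ(Q)` for a self-centralizing normal `p`-subgroup `Q`.
-/

set_option autoImplicit false

namespace Cfsg.Agent.H58

variable {X : Type*} [Group X] [Finite X]

/-- If `Q` is a normal `p`-subgroup containing its centralizer, the elements of `X` acting
trivially on `Q / Φ(Q)` form a normal `p`-subgroup. -/
theorem exists_normal_pGroup_trivial_mod_frattini {p : ℕ} [Fact p.Prime] (Q : Subgroup X)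
    [Q.Normal] (hQ : IsPGroup p ↥Q) (hC : Subgroup.centralizer (Q : Set X) ≤ Q) :
    ∃ K : Subgroup X, K.Normal ∧ IsPGroup p ↥K ∧
      ∀ x : X, (∀ q ∈ Q, q * x * q⁻¹ * x⁻¹ ∈ (frattini ↥Q).map Q.subtype) → x ∈ K := by
  set F := (frattini ↥Q).map Q.subtype with hF
  haveI : (frattini ↥Q).Characteristic := inferInstance
  haveI hFn : F.Normal := ConjAct.normal_of_characteristic_of_normal
  haveI : (Q.map (QuotientGroup.mk' F)).Normal :=
    Subgroup.Normal.map inferInstance _ (QuotientGroup.mk'_surjective F)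
  set K := (Subgroup.centralizer ((Q.map (QuotientGroup.mk' F) : Subgroup (X ⧸ F)) : Set (X ⧸ F))).comap
    (QuotientGroup.mk' F) with hK
  have hKn : K.Normal := Subgroup.Normal.comap (Subgroup.normal_centralizer) _
  have hmem : ∀ x : X, x ∈ K ↔ ∀ q ∈ Q, q * x * q⁻¹ * x⁻¹ ∈ F := by
    intro x
    rw [hK, Subgroup.mem_comap, Subgroup.mem_centralizer_iff]
    have key : ∀ q : X, (QuotientGroup.mk' F q * QuotientGroup.mk' F x =
        QuotientGroup.mk' F x * QuotientGroup.mk' F q) ↔ q * x * q⁻¹ * x⁻¹ ∈ F := by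
      intro q
      rw [← QuotientGroup.eq_one_iff (N := F), ← QuotientGroup.mk'_apply F, map_mul, map_mul,
        map_mul, map_inv, map_inv]
      constructor
      · intro h; rw [h]; group
      · intro h
        rw [mul_inv_eq_one, mul_inv_eq_iff_eq_mul] at h
        exact h
    constructor
    · intro h q hq
      exact (key q).mp (h _ ⟨q, hq, rfl⟩)
    · rintro h _ ⟨q, hq, rfl⟩
      exact (key q).mpr (h q hq)
  refine ⟨K, hKn, H74.isPGroup_of_pPrime_elements_trivial fun c hc hp => ?_, fun x hx => (hmem x).mpr hx⟩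
  by_contra hc1
  obtain ⟨r, hr, hrd⟩ := Nat.exists_prime_and_dvd (fun h => hc1 (orderOf_eq_one_iff.mp h))
  haveI : Fact r.Prime := ⟨hr⟩
  have hrp : r ≠ p := fun h => hp (h ▸ hrd)
  have hd : c ^ (orderOf c / r) ∈ K := K.pow_mem hc _
  have hdo : orderOf (c ^ (orderOf c / r)) = r := by
    rw [orderOf_pow_orderOf_div (orderOf_pos c).ne' hrd]
  set d := c ^ (orderOf c / r) with hddef
  let e : MulAut ↥Q :=
    { toFun := fun q => ⟨d * q.1 * d⁻¹, (inferInstance : Q.Normal).conj_mem _ q.2 d⟩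
      invFun := fun q => ⟨d⁻¹ * q.1 * d,
        by simpa using (inferInstance : Q.Normal).conj_mem _ q.2 d⁻¹⟩
      left_inv := fun q => by simp [mul_assoc]
      right_inv := fun q => by simp [mul_assoc]
      map_mul' := fun a b => by ext; simp [mul_assoc] }
  have hpow : ∀ n : ℕ, ∀ q : ↥Q, ((e ^ n) q).1 = d ^ n * q.1 * (d ^ n)⁻¹ := by
    intro n
    induction n with
    | zero => simp
    | succ n ih =>
      intro q
      rw [pow_succ']
      show d * ((e ^ n) q).1 * d⁻¹ = _
      rw [ih q, pow_succ']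
      group
  have her : e ^ r = 1 := by
    refine MulEquiv.ext fun q => Subtype.ext ?_
    rw [hpow, ← hdo, pow_orderOf_eq_one]
    simp
  have htriv : ∀ q : ↥Q, q⁻¹ * e q ∈ frattini ↥Q := by
    intro q
    obtain ⟨u, hu, hu'⟩ := (hmem d).mp hd q.1⁻¹ (Q.inv_mem q.2)
    have : q⁻¹ * e q = u := Subtype.ext (by
      show q.1⁻¹ * (d * q.1 * d⁻¹) = u.1
      rw [show (u : X) = q.1⁻¹ * d * q.1⁻¹⁻¹ * d⁻¹ from hu']
      group)
    rwa [this]
  have hfix := aut_eq_one_of_trivial_mod_frattini hQ hrp e her htriv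
  have hdQ : d ∈ Q := hC (Subgroup.mem_centralizer_iff.mpr fun q hq =>
    (mul_inv_eq_iff_eq_mul.mp (congrArg Subtype.val (hfix ⟨q, hq⟩))).symm)
  have hnd : ¬ p ∣ orderOf d := by
    rw [hdo]
    intro h
    exact hrp ((Nat.prime_dvd_prime_iff_eq Fact.out hr).mp h).symm
  have := H74.eq_one_of_mem_pGroup hQ hnd hdQ
  rw [this, orderOf_one] at hdo
  exact hr.ne_one hdo.symm

end Cfsg.Agent.H58
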