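import Cfsg.Agent.H7.SzAut
import Cfsg.Agent.H7.SzLie
import Cfsg.Prelude.Def_KGroupFacts

/-!
The outer automorphism group of a Suzuki group consists of the field automorphisms.
-/

set_option autoImplicit false
set_option linter.style.haveILetI false

namespace Cfsg.Agent.H58

open Cfsg.Agent.H7
open scoped Matrix

namespace SzOut

variable {F : Type*} [Field F] {m : ℕ}

/-- The field automorphism `a ↦ a^(2^i)` as a ring homomorphism. -/
def pwRing (H : SzHyp F m) (i : ZMod (2 * m + 1)) : F →+* F where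
  toFun := pw i
  map_one' := one_pow _
  map_mul' := H.pw_mul i
  map_zero' := zero_pow (pow_ne_zero _ two_ne_zero)
  map_add' := H.pw_add i

theorem pw_injective (H : SzHyp F m) (i : ZMod (2 * m + 1)) : Function.Injective (pw i : F → F) :=
  (pwRing H i).injective

theorem map_um (H : SzHyp F m) (i : ZMod (2 * m + 1)) (a b : F) :
    Matrix.SpecialLinearGroup.map (pwRing H i) (um m a b) = um m (pw i a) (pw i b) := by
  ext r c
  show pwRing H i ((um m a b).1 r c) = (um m (pw i a) (pw i b)).1 r c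
  have hth : ∀ x : F, pwRing H i (th m x) = th m (pwRing H i x) := fun x => map_pow (pwRing H i) x _
  have hp : ∀ x : F, pw i x = pwRing H i x := fun _ => rfl
  fin_cases r <;> fin_cases c <;> simp [um, ov, hp, hth]

/-- The field automorphism on units. -/
def pwUnit (H : SzHyp F m) (i : ZMod (2 * m + 1)) (k : Fˣ) : Fˣ :=
  Units.map (pwRing H i).toMonoidHom k

theorem map_dm (H : SzHyp F m) (i : ZMod (2 * m + 1)) (k : Fˣ) :
    Matrix.SpecialLinearGroup.map (pwRing H i) (dm m k) = dm m (pwUnit H i k) := by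
  ext r c
  show pwRing H i ((dm m k).1 r c) = (dm m (pwUnit H i k)).1 r c
  fin_cases r <;> fin_cases c <;>
    simp [dm, pwUnit, map_pow, map_inv₀]

theorem map_wm (H : SzHyp F m) (i : ZMod (2 * m + 1)) :
    Matrix.SpecialLinearGroup.map (pwRing H i) (wm F) = wm F := by
  ext r c
  show pwRing H i ((wm F).1 r c) = (wm F).1 r c
  fin_cases r <;> fin_cases c <;> simp [wm]

theorem map_mem (H : SzHyp F m) (i : ZMod (2 * m + 1)) (g : Sz F m) :
    Matrix.SpecialLinearGroup.map (pwRing H i) g.1 ∈ Sz F m := by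
  rcases H.decomp g with ⟨a, b, k, rfl⟩ | ⟨a, b, k, c, d, rfl⟩
  · show Matrix.SpecialLinearGroup.map _ (um m a b * dm m k) ∈ _
    rw [map_mul, map_um, map_dm]
    exact mul_mem (H.um_mem _ _) (H.dm_mem _)
  · show Matrix.SpecialLinearGroup.map _ (um m a b * wm F * (um m c d * dm m k)) ∈ _
    rw [map_mul, map_mul, map_mul, map_um, map_um, map_dm, map_wm]
    exact mul_mem (mul_mem (H.um_mem _ _) H.wm_mem) (mul_mem (H.um_mem _ _) (H.dm_mem _))

/-- The field automorphism of the Suzuki group, as a homomorphism. -/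
def fieldHom (H : SzHyp F m) (i : ZMod (2 * m + 1)) : Sz F m →* Sz F m where
  toFun g := ⟨Matrix.SpecialLinearGroup.map (pwRing H i) g.1, map_mem H i g⟩
  map_one' := Subtype.ext (map_one _)
  map_mul' _ _ := Subtype.ext (map_mul _ _ _)

theorem fieldHom_bijective (H : SzHyp F m) (i : ZMod (2 * m + 1)) : Function.Bijective (fieldHom H i) := by
  haveI := H.finite_Sz
  refine Finite.injective_iff_bijective.1 fun g h e => Subtype.ext ?_
  ext r c
  exact pw_injective H i (congrFun (congrFun (congrArg (fun x : Sz F m => x.1.1) e) r) c)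

/-- The field automorphism of the Suzuki group. -/
noncomputable def fieldAut (H : SzHyp F m) (i : ZMod (2 * m + 1)) : MulAut (Sz F m) :=
  MulEquiv.ofBijective (fieldHom H i) (fieldHom_bijective H i)

theorem fieldAut_us (H : SzHyp F m) (i : ZMod (2 * m + 1)) (a b : F) :
    fieldAut H i (H.us a b) = H.us (pw i a) (pw i b) :=
  Subtype.ext (map_um H i a b)

theorem fieldAut_ds (H : SzHyp F m) (i : ZMod (2 * m + 1)) (k : Fˣ) :
    fieldAut H i (H.ds k) = H.ds (pwUnit H i k) :=
  Subtype.ext (map_dm H i k)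

theorem eq_zero_of_pw_eq_id (H : SzHyp F m) {i : ZMod (2 * m + 1)} (h : ∀ a : F, pw i a = a) : i = 0 := by
  classical
  haveI := H.fin
  haveI := Fintype.ofFinite F
  by_contra hi
  have hv0 : i.val ≠ 0 := fun e => hi ((ZMod.val_eq_zero i).1 e)
  have hv : i.val < 2 * m + 1 := ZMod.val_lt i
  have h2 : 1 < 2 ^ i.val := Nat.one_lt_two_pow hv0
  set P : Polynomial F := Polynomial.X ^ (2 ^ i.val) - Polynomial.X with hP
  have hdeg : P.natDegree = 2 ^ i.val := FiniteField.X_pow_card_sub_X_natDegree_eq F h2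
  have hz : P = 0 := Polynomial.eq_zero_of_natDegree_lt_card_of_eval_eq_zero P (f := (id : F → F))
    Function.injective_id (fun a => by
      have := h a
      simp only [pw] at this
      simp [hP, this])
    (by rw [hdeg, ← Nat.card_eq_fintype_card, H.card]; exact Nat.pow_lt_pow_right one_lt_two hv)
  exact FiniteField.X_pow_card_sub_X_ne_zero F h2 hz

theorem pw_index_inj (H : SzHyp F m) {i j : ZMod (2 * m + 1)} (h : ∀ a : F, pw i a = pw j a) : i = j := by
  have h0 : i - j = 0 := eq_zero_of_pw_eq_id H fun a => by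
    have h1 := h (pw (-j) a)
    rw [H.pw_add_index, H.pw_add_index, add_neg_cancel, H.pw_zero_index] at h1
    rwa [sub_eq_add_neg]
  exact sub_eq_zero.1 h0

theorem out_injective (H : SzHyp F m) :
    Function.Injective fun i => (QuotientGroup.mk (fieldAut H i) : Cfsg.Out (Sz F m)) := by
  intro i j e
  obtain ⟨g, hg⟩ := MonoidHom.mem_range.1 (QuotientGroup.eq.1 e)
  have happ : ∀ x, fieldAut H i (g * x * g⁻¹) = fieldAut H j x := fun x => by
    have := congrArg (fun ψ : MulAut (Sz F m) => fieldAut H i (ψ x)) hg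
    simpa using this
  have h10 : ∀ k : ZMod (2 * m + 1), fieldAut H k (H.us 1 0) = H.us 1 0 := fun k => by
    rw [fieldAut_us, show pw k (1 : F) = 1 from one_pow _,
      show pw k (0 : F) = 0 from zero_pow (pow_ne_zero _ two_ne_zero)]
  have hgu : g * H.us 1 0 * g⁻¹ = H.us 1 0 :=
    (fieldAut H i).injective ((happ _).trans ((h10 j).trans (h10 i).symm))
  have hgB : g ∈ H.B := H.mem_B_of_conj_mem_Q (H.us_mem_Q 1 0) H.us_one_zero_ne_one
    (by rw [hgu]; exact H.us_mem_Q 1 0)
  obtain ⟨c, d, k, rfl⟩ := H.fix_inf hgB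
  rw [H.B_conj_us, H.us_inj] at hgu
  have hk : (k : F) = 1 := by simpa using hgu.1
  refine pw_index_inj H fun a => ?_
  have := happ (H.us a 0)
  rw [H.B_conj_us, fieldAut_us, fieldAut_us, H.us_inj, hk, one_mul] at this
  exact this.1

theorem exists_act (H : SzHyp F m) {φ : MulAut (Sz F m)} (hQ : ∀ u ∈ H.Q, φ u ∈ H.Q) :
    ∃ (k : Fˣ) (i : ZMod (2 * m + 1)), ∀ a b : F, ∃ b', φ (H.us a b) = H.us ((k : F) * pw i a) b' := by
  haveI := H.fin
  haveI := H.finite_Sz
  let r : H.Q →* H.Q :=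
    { toFun := fun u => ⟨φ u, hQ u u.2⟩
      map_one' := Subtype.ext (map_one φ)
      map_mul' := fun _ _ => Subtype.ext (map_mul φ _ _) }
  have hr : Function.Bijective r := Finite.injective_iff_bijective.1 fun x y e =>
    Subtype.ext (φ.injective (congrArg Subtype.val e))
  let ψ : MulAut H.Q := MulEquiv.ofBijective r hr
  have hzero : ∀ z, ψ (H.qe 0 z) = H.qe 0 (H.snd' (ψ (H.qe 0 z))) := fun z => by
    obtain ⟨x, y, hxy⟩ := H.qe_surj (ψ (H.qe 0 z))
    have := H.aut_qe_zero ψ z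
    rw [hxy, SzHyp.fst'_qe] at this
    rw [hxy, this, SzHyp.snd'_qe]
  let β : F →+ F := AddMonoidHom.mk' (fun b => H.snd' (ψ (H.qe 0 b))) fun b d => by
    have e : H.qe 0 b * H.qe 0 d = H.qe 0 (b + d) := by rw [H.qe_mul, H.qe_inj]; simp
    rw [← e, map_mul, hzero b, hzero d, H.qe_mul]
    simp
  obtain ⟨k, i, hki⟩ := H.rigid (H.top' ψ) β fun a => by
    show H.snd' (ψ (H.qe 0 (th m a * a))) = _
    rw [← H.qe_sq a 0, map_mul]
    obtain ⟨x, y, hxy⟩ := H.qe_surj (ψ (H.qe a 0))
    rw [hxy, H.qe_sq, SzHyp.snd'_qe, show H.top' ψ a = x by show H.fst' _ = _; rw [hxy, SzHyp.fst'_qe]]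
  have hk : k ≠ 0 := by
    rintro rfl
    obtain ⟨u, hu⟩ := ψ.surjective (H.qe 1 0)
    obtain ⟨a, b, rfl⟩ := H.qe_surj u
    have := H.top'_eq ψ a b
    rw [hu, SzHyp.fst'_qe, hki, zero_mul] at this
    exact one_ne_zero this
  refine ⟨Units.mk0 k hk, i, fun a b => ?_⟩
  obtain ⟨x, y, hxy⟩ := H.qe_surj (ψ (H.qe a b))
  have := H.top'_eq ψ a b
  rw [hxy, SzHyp.fst'_qe, hki] at this
  exact ⟨y, by rw [Units.val_mk0, ← this]; exact congrArg Subtype.val hxy⟩

theorem act_to_top (H : SzHyp F m) {φ : MulAut (Sz F m)} {k : Fˣ} {i : ZMod (2 * m + 1)}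
    (h : ∀ a b : F, ∃ b', φ (H.us a b) = H.us ((k : F) * pw i a) b') :
    ∀ a b : F, ∃ b', ((MulAut.conj (H.ds k) * fieldAut H i)⁻¹ * φ) (H.us a b) = H.us a b' := by
  intro a b
  simp only [MulAut.mul_apply]
  obtain ⟨b', hb'⟩ := h a b
  obtain ⟨b'', hb''⟩ : ∃ b'', b' = (k : F) * th m (k : F) * pw i b'' := by
    refine ⟨pw (-i) (((k : F) * th m (k : F))⁻¹ * b'), ?_⟩
    rw [H.pw_add_index, add_neg_cancel, H.pw_zero_index,
      mul_inv_cancel_left₀]
    exact mul_ne_zero k.ne_zero (pow_ne_zero _ k.ne_zero)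
  refine ⟨b'', ?_⟩
  rw [hb', MulAut.inv_def, MulEquiv.symm_apply_eq]
  show _ = MulAut.conj (H.ds k) (fieldAut H i (H.us a b''))
  rw [fieldAut_us, MulAut.conj_apply, H.ds_us_conj, hb'']

theorem eq_one_of_fix (H : SzHyp F m) {φ : MulAut (Sz F m)} (hus : ∀ a b, φ (H.us a b) = H.us a b)
    (hds : ∀ k, φ (H.ds k) = H.ds k) : φ = 1 := by
  have hB : ∀ g ∈ H.B, φ g = g := by
    intro g hg
    obtain ⟨a, b, k, rfl⟩ := H.fix_inf hg
    rw [map_mul, hus, hds]
  -- the image of the exchanging involution moves the base point in the same way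
  have hw : φ H.ws • pinf F = pzero F := by
    rcases mem_ovoid.1 (SzHyp.smul_mem (φ H.ws) (inf_mem (m := m))) with h | ⟨x, y, h⟩
    · have h2 : φ H.ws = H.ws := φ.injective (hB _ h)
      exact absurd (h2 ▸ h : H.ws ∈ H.B) H.ws_notMem_B
    · obtain ⟨k, hk⟩ := H.exists_unit_ne_one
      have hwk : φ H.ws * H.ds k⁻¹ * φ H.ws = H.ds k := by
        have := congrArg φ (H.ws_ds_ws k⁻¹)
        rwa [map_mul, map_mul, hds, hds, inv_inv] at this
      have hw2 : φ H.ws * φ H.ws = 1 := by rw [← map_mul, H.ws_mul_self, map_one]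
      have hfix : H.ds k • pt m x y = pt m x y := by
        calc H.ds k • pt m x y = (φ H.ws * H.ds k⁻¹ * φ H.ws) • (φ H.ws • pinf F) := by rw [hwk, h]
          _ = (φ H.ws * H.ds k⁻¹ * (φ H.ws * φ H.ws)) • pinf F := by simp only [mul_smul]
          _ = pt m x y := by rw [hw2, mul_one, mul_smul, H.ds_inf, h]
      rw [H.ds_pt, pt_inj] at hfix
      have hk1 : (k : F) ≠ 1 := fun e => hk (Units.ext e)
      have hx : x = 0 := by
        by_contra hx
        exact hk1 ((mul_eq_right₀ hx).1 hfix.1)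
      have hy : y = 0 := by
        by_contra hy
        exact hk1 (H.ker_norm ((mul_eq_right₀ hy).1 hfix.2))
      rw [h, hx, hy, pt_zero]
  have hinf : ∀ g, φ g • pinf F = g • pinf F := by
    intro g
    rcases H.decomp g with ⟨a, b, k, rfl⟩ | ⟨a, b, k, c, d, rfl⟩
    · rw [map_mul, hus, hds]
    · rw [map_mul, map_mul, map_mul, hus, hus, hds]
      simp only [mul_smul, H.ds_inf, H.us_inf, hw, H.ws_inf]
  have hsmul : ∀ (g : Sz F m) (p : suzukiOvoid F m), φ g • (p : Projectivization F (Fin 4 → F)) =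
      g • (p : Projectivization F (Fin 4 → F)) := by
    intro g p
    obtain ⟨h, hh⟩ : ∃ h : Sz F m, h • pinf F = (p : Projectivization F (Fin 4 → F)) := by
      rcases mem_ovoid.1 p.2 with e | ⟨x, y, e⟩
      · exact ⟨1, by rw [one_smul, e]⟩
      · exact ⟨H.us x y * H.ws, by rw [mul_smul, H.ws_inf, H.us_zero_pt, e]⟩
    conv_lhs => rw [← hh, ← hinf h, ← mul_smul, ← map_mul, hinf]
    rw [mul_smul, hh]
  haveI := H.faithful
  exact MulEquiv.ext fun g => FaithfulSMul.eq_of_smul_eq_smul fun p : suzukiOvoid F m =>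
    Subtype.ext (hsmul g p)

theorem eq_conj_of_top (H : SzHyp F m) {φ : MulAut (Sz F m)}
    (htop : ∀ a b : F, ∃ b', φ (H.us a b) = H.us a b') : ∃ g : Sz F m, φ = MulAut.conj g := by
  haveI := H.fin
  obtain ⟨w, hw⟩ := IsCyclic.exists_generator (α := Fˣ)
  have hw1 : (w : F) ≠ 1 := by
    intro e
    obtain ⟨k, hk⟩ := H.exists_unit_ne_one
    obtain ⟨n, hn⟩ := Subgroup.mem_zpowers_iff.1 (hw k)
    exact hk (by rw [← hn, Units.val_eq_one.1 e, one_zpow])
  have hn1 : (w : F) * th m (w : F) ≠ 1 := fun e => hw1 (H.ker_norm e)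
  have hds_mem : φ (H.ds w) ∈ H.B := by
    refine H.mem_B_of_conj_mem_Q (u := φ (H.us 1 0)) ?_ ?_ ?_
    · obtain ⟨b', hb'⟩ := htop 1 0; rw [hb']; exact H.us_mem_Q _ _
    · intro e; exact H.us_one_zero_ne_one (φ.injective (e.trans (map_one φ).symm))
    · rw [← map_inv, ← map_mul, ← map_mul, H.ds_us_conj]
      obtain ⟨b', hb'⟩ := htop ((w : F) * 1) ((w : F) * th m (w : F) * 0)
      rw [hb']; exact H.us_mem_Q _ _
  obtain ⟨c, d, k, hcd⟩ := H.fix_inf hds_mem
  have hk : k = w := by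
    obtain ⟨b₁, hb₁⟩ := htop 1 0
    obtain ⟨b₂, hb₂⟩ := htop ((w : F) * 1) ((w : F) * th m (w : F) * 0)
    have e := congrArg φ (H.ds_us_conj w 1 0)
    rw [map_mul, map_mul, map_inv, hcd, hb₁, hb₂, H.B_conj_us, H.us_inj] at e
    exact Units.ext (by simpa using e.1)
  subst hk
  -- move the image of the torus back
  have hne : (1 : F) + k ≠ 0 := fun e => hw1 ((H.add_eq_zero_iff _ _).1 e).symm
  have hne' : (1 : F) + (k : F) * th m (k : F) ≠ 0 := fun e => hn1 ((H.add_eq_zero_iff _ _).1 e).symm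
  obtain ⟨x, hx⟩ : ∃ x : F, x + c + (k : F) * x = 0 := ⟨c / (1 + k), by
    have e : c / (1 + (k : F)) * (1 + k) = c := div_mul_cancel₀ c hne
    linear_combination e + c * H.two_eq⟩
  obtain ⟨y, hy⟩ : ∃ y : F, y + d + th m x * c + (k : F) * th m (k : F) * (y + x * th m x) +
      th m (x + c) * ((k : F) * x) = 0 := by
    set R := d + th m x * c + (k : F) * th m (k : F) * (x * th m x) + th m (x + c) * ((k : F) * x)
    refine ⟨R / (1 + (k : F) * th m (k : F)), ?_⟩
    have e : R / (1 + (k : F) * th m (k : F)) * (1 + (k : F) * th m (k : F)) = R := div_mul_cancel₀ R hne'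
    linear_combination e + R * H.two_eq
  set ψ := MulAut.conj (H.us x y) * φ with hψ
  have hψds : ψ (H.ds k) = H.ds k := by
    show MulAut.conj (H.us x y) (φ (H.ds k)) = _
    rw [MulAut.conj_apply, hcd, H.us_inv, mul_assoc (H.us x y), mul_assoc (H.us c d), H.ds_us,
      ← mul_assoc (H.us c d), H.us_mul, ← mul_assoc, H.us_mul]
    have e1 : x + (c + (k : F) * x) = 0 := by linear_combination hx
    have e2 : y + (d + (k : F) * th m (k : F) * (y + x * th m x) + th m c * ((k : F) * x)) +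
        th m x * (c + (k : F) * x) = 0 := by
      rw [H.th_add] at hy
      linear_combination hy
    rw [e1, e2, H.us_zero, one_mul]
  have hψds' : ∀ l, ψ (H.ds l) = H.ds l := by
    intro l
    obtain ⟨n, rfl⟩ := Subgroup.mem_zpowers_iff.1 (hw l)
    rw [show H.ds (k ^ n) = H.ds k ^ n from map_zpow H.dsHom k n, map_zpow, hψds]
  have hψtop : ∀ a b : F, ∃ b', ψ (H.us a b) = H.us a b' := by
    intro a b
    obtain ⟨b', hb'⟩ := htop a b
    exact ⟨b' + (th m x * a + th m a * x), by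
      show MulAut.conj (H.us x y) (φ (H.us a b)) = _
      rw [hb', MulAut.conj_apply, H.us_conj]⟩
  choose f hf using fun a => hψtop a 0
  have hf0 : ∀ a, f a = 0 := by
    have hscale : ∀ (l : Fˣ), f (l : F) = (l : F) * th m (l : F) * f 1 := by
      intro l
      have e := congrArg ψ (H.ds_us_conj l 1 0)
      rw [map_mul, map_mul, map_inv, hψds', hf 1, H.ds_us_conj, mul_one, mul_zero, hf, H.us_inj] at e
      exact e.2.symm
    have hz : ∀ b, ψ (H.us 0 b) = H.us 0 b := by
      intro b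
      rcases eq_or_ne b 0 with rfl | hb
      · rw [H.us_zero, map_one]
      obtain ⟨l, hl⟩ := H.normBij_surjective (Units.mk0 b hb)
      have e : H.us 0 b = H.us (l : F) 0 * H.us (l : F) 0 := by
        rw [H.us_mul, H.add_self, add_zero, zero_add, mul_comm, hl, Units.val_mk0]
      conv_lhs => rw [e, map_mul, hf, H.us_mul, H.add_self, H.add_self, zero_add, mul_comm, hl, Units.val_mk0]
    have hadd : ∀ a a', f (a + a') = f a + f a' := by
      intro a a'
      have e : H.us a 0 * H.us a' 0 = H.us (a + a') 0 * H.us 0 (th m a * a') := by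
        rw [H.us_mul, H.us_mul, H.us_inj]; simp
      have := congrArg ψ e
      rw [map_mul, map_mul, hf, hf, hf, hz, H.us_mul, H.us_mul, H.us_inj, mul_zero, add_zero] at this
      linear_combination -this.2
    have h00 : f 0 = 0 := by
      have := hadd 0 0
      rw [add_zero] at this
      linear_combination -this
    obtain ⟨v, hv⟩ := H.exists_unit_ne_one
    have hv1 : (v : F) + 1 ≠ 0 := fun e => hv (Units.ext ((H.add_eq_zero_iff _ _).1 e))
    have hone : f 1 = 0 := by
      have h := hadd (v : F) 1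
      have hu := hscale (Units.mk0 _ hv1)
      rw [Units.val_mk0] at hu
      rw [hu, hscale v, H.th_add, th_one] at h
      have h' : ((v : F) + th m (v : F)) * f 1 = 0 := by linear_combination h
      refine (mul_eq_zero.1 h').resolve_left fun hvth => ?_
      have e1 : th m (v : F) = v := ((H.add_eq_zero_iff _ _).1 hvth).symm
      have e2 := H.th_th (v : F)
      rw [e1, e1, sq] at e2
      exact hv (Units.ext ((mul_eq_left₀ v.ne_zero).1 e2.symm))
    intro a
    rcases eq_or_ne a 0 with rfl | ha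
    · exact h00
    · have := hscale (Units.mk0 a ha); rw [Units.val_mk0, hone, mul_zero] at this; exact this
  have hψus : ∀ a b, ψ (H.us a b) = H.us a b := by
    intro a b
    rcases eq_or_ne b 0 with rfl | hb
    · rw [hf, hf0]
    obtain ⟨l, hl⟩ := H.normBij_surjective (Units.mk0 b hb)
    have e : H.us a b = H.us a 0 * (H.us (l : F) 0 * H.us (l : F) 0) := by
      rw [H.us_mul (l : F), H.add_self, add_zero, zero_add, H.us_mul, mul_comm (th m (l : F)), hl,
        Units.val_mk0]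
      simp
    conv_lhs => rw [e, map_mul, map_mul, hf, hf, hf0, hf0, ← e]
  refine ⟨(H.us x y)⁻¹, ?_⟩
  rw [map_inv]
  exact eq_inv_of_mul_eq_one_right (eq_one_of_fix H hψus hψds')

theorem out_surjective (H : SzHyp F m) :
    Function.Surjective fun i => (QuotientGroup.mk (fieldAut H i) : Cfsg.Out (Sz F m)) := by
  intro o
  obtain ⟨φ, rfl⟩ := QuotientGroup.mk_surjective o
  haveI := H.finite_Sz
  haveI : Fact (Nat.Prime 2) := ⟨Nat.prime_two⟩
  have hcard : Nat.card ↥(H.Q.map φ.toMonoidHom) = 2 ^ (Nat.card (Sz F m)).factorization 2 := by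
    have h0 := H.sylowQ.card_eq_multiplicity
    rw [H.coe_sylowQ] at h0
    rw [Subgroup.card_map_of_injective φ.injective]
    exact h0
  obtain ⟨g, hg⟩ := H.exists_conj_sylow (Sylow.ofCard (H.Q.map φ.toMonoidHom) hcard)
  rw [Sylow.coe_ofCard] at hg
  have hg' : ∀ u ∈ H.Q, (MulAut.conj g)⁻¹ (φ u) ∈ H.Q := by
    intro u hu
    obtain ⟨v, hv, hve⟩ : φ u ∈ H.Q.map (MulAut.conj g).toMonoidHom := hg ▸ ⟨u, hu, rfl⟩
    have e : (MulAut.conj g) v = φ u := hve
    rw [← e, MulAut.inv_def, MulEquiv.symm_apply_apply]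
    exact hv
  obtain ⟨φ₁, hφ₁⟩ : ∃ φ₁ : MulAut (Sz F m), φ₁ = (MulAut.conj g)⁻¹ * φ := ⟨_, rfl⟩
  have hφ₁Q : ∀ u ∈ H.Q, φ₁ u ∈ H.Q := fun u hu => by
    rw [hφ₁, MulAut.mul_apply]; exact hg' u hu
  obtain ⟨k, i, hki⟩ := exists_act H hφ₁Q
  obtain ⟨g', hg''⟩ := eq_conj_of_top H
    (act_to_top H hki)
  rw [hφ₁] at hg''
  refine ⟨i, ?_⟩
  show (QuotientGroup.mk (fieldAut H i) : Cfsg.Out (Sz F m)) = QuotientGroup.mk φ
  have hconj : ∀ z : Sz F m, (QuotientGroup.mk (MulAut.conj z) : Cfsg.Out (Sz F m)) = 1 := fun z =>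
    (QuotientGroup.eq_one_iff _).2 ⟨z, rfl⟩
  have e : φ = MulAut.conj g * ((MulAut.conj (H.ds k) * fieldAut H i) * MulAut.conj g') := by
    rw [← hg'', mul_inv_cancel_left, mul_inv_cancel_left]
  rw [e, QuotientGroup.mk_mul, QuotientGroup.mk_mul, QuotientGroup.mk_mul, hconj g, hconj (H.ds k),
    hconj g', one_mul, one_mul, mul_one]

/-- `|Out(Sz(q))| = 2m + 1`. -/
theorem card_out (H : SzHyp F m) : Nat.card (Cfsg.Out (Sz F m)) = 2 * m + 1 := by
  rw [← Nat.card_eq_of_bijective _ ⟨out_injective H, out_surjective H⟩, Nat.card_zmod]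

/-- `Out` is an isomorphism invariant. -/
noncomputable def outCongr {G G' : Type*} [Group G] [Group G'] (e : G ≃* G') :
    Cfsg.Out G ≃* Cfsg.Out G' :=
  QuotientGroup.congr _ _ (MulAut.congr e) (by
    ext ψ
    constructor
    · rintro ⟨_, ⟨g, rfl⟩, rfl⟩
      exact ⟨e g, by ext x; simp [MulAut.congr]⟩
    · rintro ⟨g, rfl⟩
      exact ⟨MulAut.conj (e.symm g), ⟨_, rfl⟩, by ext x; simp [MulAut.congr]⟩)

end SzOut

end Cfsg.Agent.H58
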