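import Mathlib
import Cfsg.Agent.H70.SLGen

/-!
`SL` of dimension at least three over a finite field is generated by three conjugate regular
unipotent elements: the Jordan block `J`, a companion conjugate `C` of it, and `J` times a
corner transvection.
-/

set_option autoImplicit false
set_option linter.style.haveILetI false
set_option linter.unusedSimpArgs false

namespace Cfsg.Agent.H58

open Matrix

section Field

variable {F : Type*} [Field F] {m : ℕ}

/-- The superdiagonal entries. -/
def supEntry (ε : F) (i : Fin (m + 1)) : F := if (i : ℕ) = 0 then ε else 1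

/-- The nilpotent block with superdiagonal `ε, 1, …, 1`. -/
def supMat (ε : F) : Matrix (Fin (m + 1)) (Fin (m + 1)) F :=
  Matrix.of fun i j => if (j : ℕ) = (i : ℕ) + 1 then supEntry ε i else 0

theorem supMat_pow_apply (ε : F) (k : ℕ) (i j : Fin (m + 1)) :
    (supMat ε ^ k) i j = if (j : ℕ) = (i : ℕ) + k then (if k = 0 then 1 else supEntry ε i) else 0 := by
  induction k generalizing i with
  | zero => simp [Matrix.one_apply, Fin.ext_iff, eq_comm]
  | succ k ih =>
    rw [pow_succ', Matrix.mul_apply]
    by_cases hi : (i : ℕ) + 1 < m + 1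
    · rw [Finset.sum_eq_single (⟨(i : ℕ) + 1, hi⟩ : Fin (m + 1))]
      · rw [ih]
        simp only [supMat, Matrix.of_apply, if_true, Nat.succ_ne_zero, if_false]
        by_cases hj : (j : ℕ) = (i : ℕ) + (k + 1)
        · rw [if_pos hj, if_pos (by omega)]
          by_cases hk : k = 0
          · simp [hk]
          · simp [hk, supEntry]
        · rw [if_neg hj, if_neg (by omega), mul_zero]
      · intro l _ hl
        rw [show supMat ε i l = 0 from if_neg fun h => hl (Fin.ext h), zero_mul]
      · simp
    · rw [if_neg (by omega)]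
      refine Finset.sum_eq_zero fun l _ => ?_
      simp [supMat, show (l : ℕ) ≠ (i : ℕ) + 1 by omega]

/-- The regular unipotent matrix `1 + N`. -/
def jordanMat (ε : F) : Matrix (Fin (m + 1)) (Fin (m + 1)) F := 1 + supMat ε

theorem det_jordanMat (ε : F) : (jordanMat (m := m) ε).det = 1 := by
  rw [Matrix.det_of_isUpperTriangular]
  · refine Finset.prod_eq_one fun i _ => ?_
    simp [jordanMat, supMat]
  · intro i j hij
    have h : (j : ℕ) < i := hij
    simp [jordanMat, supMat, (ne_of_gt hij : i ≠ j), show (j : ℕ) ≠ (i : ℕ) + 1 by omega]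

/-- The iterates of the last basis vector under `1 + N`. -/
theorem jordanMat_pow_apply_last (ε : F) (k : ℕ) (i : Fin (m + 1)) :
    (jordanMat (m := m) ε ^ k) i (Fin.last m) =
      (k.choose (m - (i : ℕ)) : F) * (if (i : ℕ) = m then 1 else supEntry ε i) := by
  induction k generalizing i with
  | zero =>
    rcases eq_or_ne (i : ℕ) m with h | h
    · simp [h, show i = Fin.last m from Fin.ext h]
    · obtain ⟨d, hd⟩ : ∃ d, m - (i : ℕ) = d + 1 := ⟨m - i - 1, by omega⟩
      simp [h, Matrix.one_apply, show i ≠ Fin.last m from fun e => h (congrArg Fin.val e), hd]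
  | succ k ih =>
    rw [pow_succ', show jordanMat (m := m) ε = 1 + supMat ε from rfl, Matrix.add_mul, Matrix.one_mul,
      Matrix.add_apply, Matrix.mul_apply]
    rw [show (1 + supMat ε : Matrix (Fin (m + 1)) (Fin (m + 1)) F) = jordanMat ε from rfl, ih]
    rcases eq_or_ne (i : ℕ) m with h | h
    · rw [Finset.sum_eq_zero]
      · simp [h]
      · intro l _
        simp [supMat, show (l : ℕ) ≠ (i : ℕ) + 1 by omega]
    · rw [Finset.sum_eq_single (⟨(i : ℕ) + 1, by omega⟩ : Fin (m + 1))]
      · rw [ih]
        obtain ⟨d, hd⟩ : ∃ d, m - (i : ℕ) = d + 1 := ⟨m - i - 1, by omega⟩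
        have hd' : m - ((i : ℕ) + 1) = d := by omega
        simp only [supMat, Matrix.of_apply, if_true, hd, hd', Nat.choose_succ_succ, Nat.cast_add]
        have hone : supEntry ε (⟨(i : ℕ) + 1, by omega⟩ : Fin (m + 1)) = 1 := by simp [supEntry]
        rcases eq_or_ne ((i : ℕ) + 1) m with h' | h'
        · simp [h, h']; ring
        · simp [h, h', hone]; ring
      · intro l _ hl
        rw [show supMat ε i l = 0 from if_neg fun e => hl (Fin.ext e), zero_mul]
      · simp

/-- The matrix with columns the iterates of the last basis vector. -/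
def cyclicMat (ε : F) : Matrix (Fin (m + 1)) (Fin (m + 1)) F :=
  Matrix.of fun i j => (jordanMat (m := m) ε ^ (j : ℕ)) i (Fin.last m)

theorem cyclicMat_eq (hm : 1 ≤ m) (ε : F) :
    cyclicMat (m := m) ε =
      Matrix.diagonal (fun i : Fin (m + 1) => supEntry ε i) * cyclicMat 1 := by
  ext i j
  rw [Matrix.diagonal_mul]
  simp only [cyclicMat, Matrix.of_apply, jordanMat_pow_apply_last, supEntry]
  rcases eq_or_ne (i : ℕ) m with h | h
  · simp [h, show m ≠ 0 by omega]
  · by_cases h0 : (i : ℕ) = 0
    · simp [h0, show ¬ (0 = m) by omega]; ring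
    · simp [h, h0]

theorem det_cyclicMat (hm : 1 ≤ m) (ε : F) :
    (cyclicMat (m := m) ε).det = ε * (cyclicMat (m := m) (1 : F)).det := by
  rw [cyclicMat_eq hm, Matrix.det_mul, Matrix.det_diagonal, Fin.prod_univ_succ]
  simp [supEntry]

theorem det_cyclicMat_one_ne_zero : (cyclicMat (m := m) (1 : F)).det ≠ 0 := by
  intro h
  have hs : ((cyclicMat (m := m) (1 : F)).submatrix (Fin.revPerm : Equiv.Perm (Fin (m + 1))) id).det =
      1 := by
    rw [Matrix.det_of_isUpperTriangular]
    · refine Finset.prod_eq_one fun k _ => ?_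
      have hk : m - (m - (k : ℕ)) = k := by omega
      simp [cyclicMat, jordanMat_pow_apply_last, supEntry, Fin.val_rev, hk]
    · intro k j hkj
      have h : (j : ℕ) < k := hkj
      have hk : m - (m - (k : ℕ)) = k := by omega
      simp [cyclicMat, jordanMat_pow_apply_last, Fin.val_rev, hk, Nat.choose_eq_zero_of_lt h]
  rw [Matrix.det_permute, h, mul_zero] at hs
  exact zero_ne_one hs

/-- The transvection with vector `v` and functional `φ`. -/
def trans {ι : Type*} [Fintype ι] [DecidableEq ι] (v φ : ι → F) : Matrix ι ι F :=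
  1 + Matrix.vecMulVec v φ

/-- Moving a transvection across a matrix. -/
theorem mul_trans {ι : Type*} [Fintype ι] [DecidableEq ι] (g : Matrix ι ι F) (v φ v' φ' : ι → F)
    (hv : g *ᵥ v = v') (hφ : φ' ᵥ* g = φ) : g * trans v φ = trans v' φ' * g := by
  rw [trans, trans, Matrix.mul_add, Matrix.add_mul, Matrix.mul_one, Matrix.one_mul,
    Matrix.mul_vecMulVec, Matrix.vecMulVec_mul, hv, hφ]

theorem transvection_eq_trans {ι : Type*} [Fintype ι] [DecidableEq ι] (i j : ι) (c : F) :
    Matrix.transvection i j c = trans (Pi.single i 1) (Pi.single j c) := by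
  ext a b
  simp only [Matrix.transvection, trans, Matrix.add_apply, Matrix.vecMulVec_apply, Matrix.single_apply,
    Pi.single_apply]
  by_cases ha : i = a <;> by_cases hb : j = b <;> (try subst ha) <;> (try subst hb) <;>
    simp [*, Ne.symm, eq_comm]

/-- A subgroup containing `J`, a companion conjugate `C` and all transvections in the corner
contains all transvections. -/
theorem transvection_mem_of_corner (hm : 2 ≤ m) (C : SpecialLinearGroup (Fin (m + 1)) F)
    (hC : ∀ i : Fin m, ∀ k, (C : Matrix (Fin (m + 1)) (Fin (m + 1)) F) k i.castSucc =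
      if k = i.succ then 1 else 0)
    (H : Subgroup (SpecialLinearGroup (Fin (m + 1)) F)) (hCH : C ∈ H)
    (h0 : ∀ (h : (0 : Fin (m + 1)) ≠ Fin.last m) (c : F), SpecialLinearGroup.transvection h c ∈ H) :
    ∀ (i j : Fin (m + 1)) (h : i ≠ j) (c : F), SpecialLinearGroup.transvection h c ∈ H := by
  set Cm := (C : Matrix (Fin (m + 1)) (Fin (m + 1)) F) with hCm
  have hC0 : Cm 0 (Fin.last m) ≠ 0 := by
    intro h
    have hdet : Cm.det = 0 := by
      refine Matrix.det_eq_zero_of_row_eq_zero 0 fun k => ?_
      induction k using Fin.lastCases with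
      | last => exact h
      | cast i => rw [hC]; simp [(Fin.succ_ne_zero i).symm]
    rw [hCm, C.2] at hdet
    exact one_ne_zero hdet
  have hconj : ∀ (g a b : SpecialLinearGroup (Fin (m + 1)) F), g ∈ H → a ∈ H →
      (g : Matrix (Fin (m + 1)) (Fin (m + 1)) F) * a = b * g → b ∈ H := by
    intro g a b hg ha he
    have : g * a = b * g := Subtype.ext he
    rw [show b = g * a * g⁻¹ from eq_mul_inv_iff_mul_eq.mpr this.symm]
    exact H.mul_mem (H.mul_mem hg ha) (H.inv_mem hg)
  have hmv : ∀ i : Fin m, Cm *ᵥ Pi.single i.castSucc 1 = Pi.single i.succ 1 := by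
    intro i; ext k; simp [hC, Pi.single_apply]
  -- C carries the transvection (i, last) to (i + 1, 0)
  have hlast : ∀ (i : Fin m) (h' : i.castSucc ≠ Fin.last m),
      (∀ c, SpecialLinearGroup.transvection h' c ∈ H) → ∀ c,
        SpecialLinearGroup.transvection (Fin.succ_ne_zero i) c ∈ H := by
    intro i h' hi c
    refine hconj C _ _ hCH (hi (c * Cm 0 (Fin.last m))) ?_
    show Cm * Matrix.transvection _ _ _ = Matrix.transvection _ _ _ * Cm
    rw [transvection_eq_trans, transvection_eq_trans]
    refine mul_trans _ _ _ _ _ (hmv i) ?_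
    ext k
    rw [Matrix.single_vecMul]
    induction k using Fin.lastCases with
    | last => simp [Pi.single_apply]
    | cast l => simp [hC, (Fin.succ_ne_zero l).symm, (Fin.castSucc_lt_last l).ne]
  -- the first column and the last column
  have hcol : ∀ i : Fin m, ∀ c : F, SpecialLinearGroup.transvection (Fin.succ_ne_zero i) c ∈ H := by
    intro i
    induction hk : (i : ℕ) generalizing i with
    | zero =>
      refine hlast i (Fin.castSucc_lt_last i).ne fun c => ?_
      have : i.castSucc = 0 := Fin.ext (by simpa using hk)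
      have h := h0 (this ▸ (Fin.castSucc_lt_last i).ne) c
      convert h using 2
    | succ k ih =>
      refine hlast i (Fin.castSucc_lt_last i).ne fun c => ?_
      have hk' : k < m := by omega
      have he : (⟨k, hk'⟩ : Fin m).succ = i.castSucc := Fin.ext (by simp [hk])
      have hne0 : (0 : Fin (m + 1)) ≠ Fin.last m := fun e => by
        have := congrArg Fin.val e; simp at this; omega
      have h1 := ih ⟨k, hk'⟩ rfl c
      have hine : i.castSucc ≠ 0 := he ▸ Fin.succ_ne_zero _
      have h1' : SpecialLinearGroup.transvection hine c ∈ H := by convert h1 using 2; exact he.symm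
      have h2 := H70.commutator_transvection hine hne0 (Fin.castSucc_lt_last i).ne c (1 : F)
      rw [mul_one] at h2
      rw [← h2, commutatorElement_def]
      exact H.mul_mem (H.mul_mem (H.mul_mem h1' (h0 _ _)) (H.inv_mem h1')) (H.inv_mem (h0 _ _))
  have hcol' : ∀ (i : Fin (m + 1)) (h : i ≠ 0) (c : F), SpecialLinearGroup.transvection h c ∈ H := by
    intro i h c
    obtain ⟨i', rfl⟩ := Fin.exists_succ_eq.mpr h
    exact hcol i' c
  -- below the diagonal
  have hlower : ∀ (j i : Fin (m + 1)) (h : i ≠ j), j < i → ∀ c : F,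
      SpecialLinearGroup.transvection h c ∈ H := by
    intro j
    induction j using Fin.induction with
    | zero => intro i h _ c; exact hcol' i h c
    | succ j ih =>
      intro i h hji c
      obtain ⟨i', rfl⟩ := Fin.exists_succ_eq.mpr (ne_bot_of_gt hji : i ≠ 0)
      have hlt : j.castSucc < i'.castSucc := by
        simpa using Fin.succ_lt_succ_iff.mp hji
      set r := Cm j.succ (Fin.last m) / Cm 0 (Fin.last m) with hr
      let b : SpecialLinearGroup (Fin (m + 1)) F :=
        SpecialLinearGroup.transvection h c *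
          SpecialLinearGroup.transvection (Fin.succ_ne_zero i') (-(c * r))
      have hb : b ∈ H := by
        refine hconj C _ _ hCH (ih _ hlt.ne' hlt c) ?_
        show Cm * Matrix.transvection _ _ _ =
          (Matrix.transvection _ _ _ * Matrix.transvection _ _ _) * Cm
        have hsum : Matrix.transvection i'.succ j.succ c * Matrix.transvection i'.succ 0 (-(c * r)) =
            trans (Pi.single i'.succ 1) (Pi.single j.succ c + Pi.single 0 (-(c * r))) := by
          rw [transvection_eq_trans, transvection_eq_trans, trans, trans, trans, Matrix.mul_add,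
            Matrix.mul_one, Matrix.add_mul, Matrix.one_mul, Matrix.vecMulVec_mul_vecMulVec]
          have h0 : (Pi.single j.succ c : Fin (m + 1) → F) ⬝ᵥ Pi.single i'.succ 1 = 0 := by
            simp [h]
          rw [h0, zero_smul, Matrix.vecMulVec_zero, add_zero, Matrix.vecMulVec_add, add_assoc]
        rw [hsum, transvection_eq_trans]
        refine mul_trans _ _ _ _ _ (hmv i') ?_
        ext k
        rw [Matrix.add_vecMul, Matrix.single_vecMul, Matrix.single_vecMul]
        induction k using Fin.lastCases with
        | last =>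
          simp only [Pi.add_apply, Pi.smul_apply, Matrix.row_apply, smul_eq_mul]
          rw [Pi.single_apply, if_neg (Fin.castSucc_lt_last j).ne', hr]
          field_simp
          ring
        | cast l =>
          simp only [Pi.add_apply, Pi.smul_apply, Matrix.row_apply, smul_eq_mul, hC]
          simp [(Fin.succ_ne_zero l).symm, Pi.single_apply, eq_comm]
      have := H.mul_mem hb (H.inv_mem (hcol i' (-(c * r))))
      simpa [b] using this
  intro i j h c
  rcases lt_or_gt_of_ne h with hlt | hgt
  · have hilast : i ≠ Fin.last m := (hlt.trans_le (Fin.le_last j)).ne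
    have him : ∀ c : F, SpecialLinearGroup.transvection hilast c ∈ H := by
      intro c
      by_cases hi : i = 0
      · subst hi; exact h0 _ c
      · have hne0 : (0 : Fin (m + 1)) ≠ Fin.last m := fun e => by
          have := congrArg Fin.val e; simp at this; omega
        have h2 := H70.commutator_transvection hi hne0 hilast c (1 : F)
        rw [mul_one] at h2
        rw [← h2, commutatorElement_def]
        exact H.mul_mem (H.mul_mem (H.mul_mem (hcol' i hi _) (h0 _ _)) (H.inv_mem (hcol' i hi _)))
          (H.inv_mem (h0 _ _))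
    by_cases hj : j = Fin.last m
    · subst hj; exact him c
    · have hjl : j < Fin.last m := lt_of_le_of_ne (Fin.le_last j) hj
      have h2 := H70.commutator_transvection hilast (Ne.symm hj) h c (1 : F)
      rw [mul_one] at h2
      rw [← h2, commutatorElement_def]
      exact H.mul_mem (H.mul_mem (H.mul_mem (him _) (hlower j _ _ hjl _)) (H.inv_mem (him _)))
        (H.inv_mem (hlower j _ _ hjl _))
  · exact hlower j i h hgt c

end Field

section Finite

variable {F : Type*} [Field F] [Finite F]

/-- A nonempty additive subgroup closed under a twisted product containing a generator is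
everything. -/
theorem addSubgroup_eq_top_of_generator (K : AddSubgroup F) {γ θ : F} (hγ : γ ≠ 0)
    (w : Fˣ) (hw : ∀ x : Fˣ, x ∈ Subgroup.zpowers w) (hθ : γ * θ = w) (hθK : θ ∈ K)
    (hmul : ∀ a ∈ K, ∀ b ∈ K, γ * (a * b) ∈ K) : ∀ a : F, a ∈ K := by
  have hpow : ∀ k : ℕ, γ⁻¹ * (w : F) ^ (k + 1) ∈ K := by
    intro k
    induction k with
    | zero => simpa [← hθ, hγ] using hθK
    | succ k ih =>
      have h := hmul _ ih _ hθK
      convert h using 1
      rw [pow_succ _ (k + 1), ← hθ]
      field_simp
  intro a
  rcases eq_or_ne a 0 with rfl | ha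
  · exact K.zero_mem
  · obtain ⟨k, hk⟩ := mem_powers_iff_mem_zpowers.mpr (hw (Units.mk0 (γ * a) (mul_ne_zero hγ ha)))
    have hw1 : w ^ orderOf w = 1 := pow_orderOf_eq_one w
    obtain ⟨d, hd⟩ : ∃ d, k + orderOf w = d + 1 :=
      ⟨k + orderOf w - 1, by have := orderOf_pos w; omega⟩
    have hkey : (w : F) ^ (d + 1) = γ * a := by
      rw [← hd, pow_add, ← Units.val_pow_eq_pow_val, ← Units.val_pow_eq_pow_val, hw1, Units.val_one,
        mul_one]
      exact congrArg Units.val hk
    have := hpow d
    rwa [hkey, inv_mul_cancel_left₀ hγ] at this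

/-- `SL` in dimension at least three is generated by three conjugate regular unipotents. -/
theorem sl_three_conjugate_regular_unipotents {m : ℕ} (hm : 2 ≤ m) :
    ∃ u g h : SpecialLinearGroup (Fin (m + 1)) F,
      (IsNilpotent ((u : Matrix (Fin (m + 1)) (Fin (m + 1)) F) - 1) ∧
        ((u : Matrix (Fin (m + 1)) (Fin (m + 1)) F) - 1) ^ m ≠ 0) ∧
      Subgroup.closure ({u, g * u * g⁻¹, h * u * h⁻¹} : Set (SpecialLinearGroup (Fin (m + 1)) F)) = ⊤ := by
  classical
  haveI := Fintype.ofFinite F
  set d := (cyclicMat (m := m) (1 : F)).det with hd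
  have hd0 : d ≠ 0 := det_cyclicMat_one_ne_zero
  set ε : F := d⁻¹ with hε
  have hε0 : ε ≠ 0 := inv_ne_zero hd0
  let J : SpecialLinearGroup (Fin (m + 1)) F := ⟨jordanMat ε, det_jordanMat ε⟩
  let P : SpecialLinearGroup (Fin (m + 1)) F :=
    ⟨cyclicMat ε, by rw [det_cyclicMat (by omega), ← hd, hε, inv_mul_cancel₀ hd0]⟩
  let C := P⁻¹ * J * P
  -- the columns of C
  have hC : ∀ i : Fin m, ∀ k, (C : Matrix (Fin (m + 1)) (Fin (m + 1)) F) k i.castSucc =
      if k = i.succ then 1 else 0 := by
    intro i k
    have hcol : ((J * P : SpecialLinearGroup (Fin (m + 1)) F) : Matrix (Fin (m + 1)) (Fin (m + 1)) F) *ᵥ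
        Pi.single i.castSucc 1 = (P : Matrix (Fin (m + 1)) (Fin (m + 1)) F) *ᵥ Pi.single i.succ 1 := by
      ext l
      simp only [Matrix.mulVec_single_one, Matrix.col_apply]
      show (jordanMat (m := m) ε * cyclicMat ε : Matrix (Fin (m + 1)) (Fin (m + 1)) F) l i.castSucc = cyclicMat ε l i.succ
      rw [Matrix.mul_apply]
      simp only [cyclicMat, Matrix.of_apply, Fin.val_succ, Fin.val_castSucc]
      rw [pow_succ', Matrix.mul_apply]
    have hC' : ((C : SpecialLinearGroup (Fin (m + 1)) F) : Matrix (Fin (m + 1)) (Fin (m + 1)) F) *ᵥ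
        Pi.single i.castSucc 1 = Pi.single i.succ 1 := by
      rw [show C = P⁻¹ * (J * P) from mul_assoc _ _ _]
      change (((P⁻¹ : SpecialLinearGroup (Fin (m + 1)) F) : Matrix (Fin (m + 1)) (Fin (m + 1)) F) *
        ((J * P : SpecialLinearGroup (Fin (m + 1)) F) : Matrix (Fin (m + 1)) (Fin (m + 1)) F)) *ᵥ _ = _
      rw [← Matrix.mulVec_mulVec, hcol, Matrix.mulVec_mulVec]
      change ((P⁻¹ * P : SpecialLinearGroup (Fin (m + 1)) F) : Matrix (Fin (m + 1)) (Fin (m + 1)) F) *ᵥ _ = _
      rw [inv_mul_cancel]
      exact Matrix.one_mulVec _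
    have := congrFun hC' k
    simpa [Matrix.mulVec_single_one, Pi.single_apply] using this
  have hm1 : 1 < m + 1 := by omega
  set one' : Fin (m + 1) := ⟨1, hm1⟩ with hone
  have h1l : one' ≠ Fin.last m := fun e => by
    have := congrArg Fin.val e; simp [hone] at this; omega
  have h10 : one' ≠ 0 := fun e => by simpa [hone] using congrArg Fin.val e
  have h0l : (0 : Fin (m + 1)) ≠ Fin.last m := fun e => by
    have := congrArg Fin.val e; simp at this; omega
  set β : F := ((C : Matrix (Fin (m + 1)) (Fin (m + 1)) F) 0 (Fin.last m))⁻¹ with hβ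
  have hrow : ∀ l : Fin m, (C : Matrix (Fin (m + 1)) (Fin (m + 1)) F) 0 l.castSucc = 0 := fun l => by
    rw [hC]; simp [(Fin.succ_ne_zero l).symm]
  have hC0 : (C : Matrix (Fin (m + 1)) (Fin (m + 1)) F) 0 (Fin.last m) ≠ 0 := by
    intro h
    refine one_ne_zero (α := F) (C.2.symm.trans (Matrix.det_eq_zero_of_row_eq_zero 0 fun k => ?_))
    induction k using Fin.lastCases with
    | last => exact h
    | cast i => exact hrow i
  have hβ0 : β ≠ 0 := inv_ne_zero hC0
  obtain ⟨w, hw⟩ := IsCyclic.exists_generator (α := Fˣ)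
  set γ := ε * β with hγ
  have hγ0 : γ ≠ 0 := mul_ne_zero hε0 hβ0
  set θ := γ⁻¹ * (w : F) with hθ
  let g₂ : SpecialLinearGroup (Fin (m + 1)) F := SpecialLinearGroup.transvection h1l (-(θ / ε))
  have hJ1 : (J : Matrix (Fin (m + 1)) (Fin (m + 1)) F) *ᵥ Pi.single one' 1 =
      ε • (Pi.single 0 1 : Fin (m + 1) → F) + Pi.single one' 1 := by
    ext k
    simp only [Matrix.mulVec_single_one, Matrix.col_apply]
    show jordanMat ε k one' = _
    rcases eq_or_ne k 0 with rfl | hk
    · simp [jordanMat, supMat, supEntry, hone, h10, Ne.symm h10]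
    · have : (k : ℕ) ≠ 0 := fun e => hk (Fin.ext e)
      simp [jordanMat, supMat, hone, Matrix.one_apply, Pi.single_apply, hk, this]
  have hJlast : ∀ c : F, (Pi.single (Fin.last m) c : Fin (m + 1) → F) ᵥ*
      (J : Matrix (Fin (m + 1)) (Fin (m + 1)) F) = Pi.single (Fin.last m) c := by
    intro c; ext k
    rw [Matrix.single_vecMul]
    show c * jordanMat ε (Fin.last m) k = _
    have : (k : ℕ) ≠ m + 1 := by omega
    simp [jordanMat, supMat, Matrix.one_apply, Pi.single_apply, this, eq_comm]
  have hJmove : ∀ c : F, J * SpecialLinearGroup.transvection h1l c =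
      SpecialLinearGroup.transvection h1l c * SpecialLinearGroup.transvection h0l (ε * c) * J := by
    intro c
    apply Subtype.ext
    show (J : Matrix (Fin (m + 1)) (Fin (m + 1)) F) * Matrix.transvection _ _ _ =
      Matrix.transvection _ _ _ * Matrix.transvection _ _ _ * _
    rw [transvection_eq_trans, mul_trans _ _ _ _ _ hJ1 (hJlast c)]
    congr 1
    have hvs : ∀ (i : Fin (m + 1)) (d : F), Matrix.vecMulVec (Pi.single i 1) (Pi.single (Fin.last m) d) =
        Matrix.single i (Fin.last m) d := fun i d => by
      have h := transvection_eq_trans i (Fin.last m) d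
      rw [Matrix.transvection, trans] at h
      exact (add_left_cancel h).symm
    rw [trans, Matrix.add_vecMulVec, Matrix.smul_vecMulVec, hvs, hvs]
    simp [trans, hvs, Matrix.transvection, Matrix.mul_add, Matrix.add_mul, Ne.symm h0l, Matrix.smul_single]
    abel
  set H := Subgroup.closure ({J, P⁻¹ * J * (P⁻¹)⁻¹, g₂ * J * g₂⁻¹} :
    Set (SpecialLinearGroup (Fin (m + 1)) F)) with hH
  have hJH : J ∈ H := Subgroup.subset_closure (by simp)
  have hCH : C ∈ H := Subgroup.subset_closure (by simp [C])
  have hθH : SpecialLinearGroup.transvection h0l θ ∈ H := by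
    have hg : g₂ * J * g₂⁻¹ ∈ H := Subgroup.subset_closure (by simp)
    have h := H.mul_mem (H.inv_mem hJH) hg
    have hgJ : J * g₂ = g₂ * SpecialLinearGroup.transvection h0l (ε * -(θ / ε)) * J := hJmove _
    have e : g₂ * J * g₂⁻¹ =
        (SpecialLinearGroup.transvection h0l (ε * -(θ / ε)))⁻¹ * J := by
      have hcomm : g₂ * SpecialLinearGroup.transvection h0l (ε * -(θ / ε)) =
          SpecialLinearGroup.transvection h0l (ε * -(θ / ε)) * g₂ := by
        apply Subtype.ext
        show Matrix.transvection _ _ _ * Matrix.transvection _ _ _ =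
          Matrix.transvection _ _ _ * Matrix.transvection _ _ _
        simp [Matrix.transvection, Matrix.mul_add, Matrix.add_mul, Ne.symm h0l, Ne.symm h1l]
        abel
      rw [mul_inv_eq_iff_eq_mul, mul_assoc, eq_inv_mul_iff_mul_eq, hgJ, hcomm, mul_assoc]
    have h2 := H.mul_mem hg (H.inv_mem hJH)
    rw [e, mul_inv_cancel_right, SpecialLinearGroup.transvection_inv] at h2
    convert h2 using 2
    field_simp
  let K : AddSubgroup F := H70.paramSet H h0l
  have hcorner : ∀ a : F, a ∈ K := by
    refine addSubgroup_eq_top_of_generator K hγ0 w hw (by rw [hθ, mul_inv_cancel_left₀ hγ0]) hθH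
      fun a ha b hb => ?_
    -- carry the corner to (1, 0)
    have h1 : SpecialLinearGroup.transvection h10 (β * a) ∈ H := by
      have he : C * SpecialLinearGroup.transvection h0l a =
          SpecialLinearGroup.transvection h10 (β * a) * C := by
        apply Subtype.ext
        show (C : Matrix (Fin (m + 1)) (Fin (m + 1)) F) * Matrix.transvection _ _ _ =
          Matrix.transvection _ _ _ * _
        rw [transvection_eq_trans, transvection_eq_trans]
        refine mul_trans _ _ _ _ _ ?_ ?_
        · ext k
          have := hC ⟨0, by omega⟩ k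
          simp [Matrix.mulVec_single_one, Pi.single_apply, hone]
          simpa using this
        · ext k
          rw [Matrix.single_vecMul]
          induction k using Fin.lastCases with
          | last => simp [hβ, hC0, mul_comm, mul_left_comm]
          | cast l => simp [hrow, (Fin.castSucc_lt_last l).ne]
      rw [← mul_inv_eq_of_eq_mul he]
      exact H.mul_mem (H.mul_mem hCH ha) (H.inv_mem hCH)
    have h2 : SpecialLinearGroup.transvection h1l (β * a * b) ∈ H := by
      rw [← H70.commutator_transvection h10 h0l h1l, commutatorElement_def]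
      exact H.mul_mem (H.mul_mem (H.mul_mem h1 hb) (H.inv_mem h1)) (H.inv_mem hb)
    have h3 : SpecialLinearGroup.transvection h1l (β * a * b) *
        SpecialLinearGroup.transvection h0l (ε * (β * a * b)) ∈ H := by
      rw [← mul_inv_eq_of_eq_mul (hJmove (β * a * b))]
      exact H.mul_mem (H.mul_mem hJH h2) (H.inv_mem hJH)
    show SpecialLinearGroup.transvection h0l (γ * (a * b)) ∈ H
    have h4 := (H.mul_mem_cancel_left h2).mp h3
    convert h4 using 2
    rw [hγ]; ring
  refine ⟨J, P⁻¹, g₂, ⟨⟨m + 1, ?_⟩, ?_⟩, ?_⟩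
  · show (jordanMat ε - 1) ^ (m + 1) = 0
    ext i j
    simp [jordanMat, supMat_pow_apply, show (j : ℕ) ≠ (i : ℕ) + (m + 1) by omega]
  · show (jordanMat (m := m) ε - 1) ^ m ≠ 0
    intro h
    have := congrFun (congrFun h 0) (Fin.last m)
    simp [jordanMat, supMat_pow_apply, supEntry, show m ≠ 0 by omega, hε0] at this
  · haveI : Nontrivial (Fin (m + 1)) := ⟨⟨0, Fin.last m, h0l⟩⟩
    exact H70.eq_top_of_transvection_mem _
      (transvection_mem_of_corner hm C hC H hCH fun _ c => hcorner c)

end Finite

end Cfsg.Agent.H58
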